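import Cfsg.Agent.H663.SP.Res
import Cfsg.Agent.H659.Rs.Box

/-!
# S3691, SP68-7: the stabiliser of a nondegenerate 2-space in `Sp_2m(q)` (helper663)
-/

set_option autoImplicit false
set_option linter.unusedSectionVars false

namespace Cfsg.Agent.H663.SP

open Matrix Cfsg Cfsg.Geo Module
open Cfsg.Agent.ClassicalGeometry.SympBasic
open scoped MatrixGroups

section res

variable {ι : Type} [Fintype ι] [DecidableEq ι] {F : Type*} [Field F]

/-- restriction to an invariant subspace -/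
def resHom (C : Subgroup (GL ι F)) (U : Submodule F (ι → F))
    (hU : ∀ g ∈ C, ∀ v ∈ U, (g : Matrix ι ι F) *ᵥ v ∈ U) : C →* Module.End F U where
  toFun g := (Matrix.toLin' ((g : GL ι F) : Matrix ι ι F)).restrict
    (fun v hv => by rw [Matrix.toLin'_apply]; exact hU g g.2 v hv)
  map_one' := by
    ext v : 2
    simp
  map_mul' := fun g h => by
    apply LinearMap.ext
    intro v
    apply Subtype.ext
    simp [LinearMap.restrict_apply, Matrix.mulVec_mulVec]

theorem resHom_apply (C : Subgroup (GL ι F)) (U : Submodule F (ι → F))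
    (hU : ∀ g ∈ C, ∀ v ∈ U, (g : Matrix ι ι F) *ᵥ v ∈ U) (g : C) (u : U) :
    ((resHom C U hU g u : U) : ι → F) = ((g : GL ι F) : Matrix ι ι F) *ᵥ (u : ι → F) := rfl

theorem resHom_eq_one (C : Subgroup (GL ι F)) (U : Submodule F (ι → F))
    (hU : ∀ g ∈ C, ∀ v ∈ U, (g : Matrix ι ι F) *ᵥ v ∈ U) (g : C) :
    resHom C U hU g = 1 ↔ ∀ u ∈ U, ((g : GL ι F) : Matrix ι ι F) *ᵥ u = u := by
  constructor
  · intro h u hu
    have := resHom_apply C U hU g ⟨u, hu⟩
    rw [h] at this
    exact this.symm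
  · intro h
    apply LinearMap.ext
    intro u
    apply Subtype.ext
    rw [resHom_apply]
    exact h u u.2

end res

variable {F : Type} [Field F] [Fintype F] {m : ℕ}

theorem compl_perp {W : Submodule F (Fin m ⊕ Fin m → F)} (hW : IsNondegenerateOn (sympForm m F) W) :
    IsCompl W (LinearMap.BilinForm.orthogonal (sympBilin m F) W) := by
  have hr : LinearMap.BilinForm.IsRefl (sympBilin m F) := fun x y h => by
    change sympForm m F y x = 0
    rw [sympForm_swap, show sympForm m F x y = 0 from h, neg_zero]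
  rw [LinearMap.BilinForm.isCompl_orthogonal_iff_disjoint hr, Submodule.disjoint_def]
  intro w hw hw'
  by_contra hne
  obtain ⟨x, hx, hx'⟩ := (hW w hw hne).1
  exact hx' (hw' x hx)

theorem mem_perp {W : Submodule F (Fin m ⊕ Fin m → F)} {v : Fin m ⊕ Fin m → F} :
    v ∈ LinearMap.BilinForm.orthogonal (sympBilin m F) W ↔ ∀ w ∈ W, sympForm m F w v = 0 := Iff.rfl

/-- **(N2)** -/
theorem boxN2 : Cfsg.Agent.H659.Rs.BoxN2 := by
  intro F _ _ m hm W hW2 hW C hC hCW
  set U := LinearMap.BilinForm.orthogonal (sympBilin m F) W with hU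
  have hcompl : IsCompl W U := compl_perp hW
  have hWC : ∀ g ∈ C, ∀ v ∈ W, ((g : GL (Fin m ⊕ Fin m) F) : Matrix (Fin m ⊕ Fin m) (Fin m ⊕ Fin m) F) *ᵥ v ∈ W :=
    fun g hg v hv => (hCW hg v).1 hv
  have hform : ∀ g ∈ C, ∀ u v, sympForm m F (((g : GL (Fin m ⊕ Fin m) F) :
      Matrix (Fin m ⊕ Fin m) (Fin m ⊕ Fin m) F) *ᵥ u) ((g : Matrix (Fin m ⊕ Fin m) (Fin m ⊕ Fin m) F) *ᵥ v) =
      sympForm m F u v := fun g hg u v => hC hg u v
  have hUC : ∀ g ∈ C, ∀ v ∈ U, ((g : GL (Fin m ⊕ Fin m) F) : Matrix (Fin m ⊕ Fin m) (Fin m ⊕ Fin m) F) *ᵥ v ∈ U := by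
    intro g hg v hv
    rw [mem_perp]
    intro w hw
    have h1 := H909.sympForm_inv_right (hC (C.inv_mem hg)) w v
    rw [inv_inv] at h1
    rw [← h1]
    exact hv _ (hWC _ (C.inv_mem hg) w hw)
  have hfin : finrank F U = 2 * (m - 1) := by
    have h1 := Submodule.finrank_add_eq_of_isCompl hcompl
    rw [hW2, Module.finrank_fintype_fun_eq_card, Fintype.card_sum, Fintype.card_fin] at h1
    omega
  -- the two restrictions of the form
  have hUnd : ∀ u : U, (∀ v : U, (LinearMap.BilinForm.restrict (sympBilin m F) U) u v = 0) → u = 0 := by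
    intro u hu
    apply Subtype.ext
    apply eq_zero_of_forall_sympForm_right
    intro x
    obtain ⟨y, z, hy, hz, hyz⟩ := Submodule.codisjoint_iff_exists_add_eq.1 hcompl.codisjoint x
    rw [← hyz, sympForm_add_right]
    have h1 : sympForm m F (u : Fin m ⊕ Fin m → F) y = 0 := by
      rw [sympForm_swap, mem_perp.1 u.2 y hy, neg_zero]
    have h2 : sympForm m F (u : Fin m ⊕ Fin m → F) z = 0 := hu ⟨z, hz⟩
    rw [h1, h2, add_zero]
  have hWnd : ∀ u : W, (∀ v : W, (LinearMap.BilinForm.restrict (sympBilin m F) W) u v = 0) → u = 0 := by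
    intro u hu
    by_contra hne
    obtain ⟨x, hx, hx'⟩ := (hW u u.2 (fun e => hne (Subtype.ext e))).2
    exact hx' (hu ⟨x, hx⟩)
  obtain ⟨φ, hφ1, hφ2⟩ := exists_hom (LinearMap.BilinForm.restrict (sympBilin m F) U)
    (fun u => sympForm_self (u : Fin m ⊕ Fin m → F)) hUnd hfin (resHom C U hUC)
    (fun g u v => hform g g.2 u v)
  obtain ⟨ψ, hψ1, hψ2⟩ := exists_hom (n := 1) (LinearMap.BilinForm.restrict (sympBilin m F) W)
    (fun u => sympForm_self (u : Fin m ⊕ Fin m → F)) hWnd (by rw [hW2]) (resHom C W hWC)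
    (fun g u v => hform g g.2 u v)
  refine ⟨φ.range, Nat.card φ.ker, ?_, card_eq φ, ?_⟩
  · rintro _ ⟨g, rfl⟩
    exact hφ1 g
  · rw [← card_spGL_one F]
    have hinj : Function.Injective ((ψ.comp φ.ker.subtype).codRestrict (spGL 1 F) fun g => hψ1 g) := by
      rw [injective_iff_map_eq_one]
      rintro ⟨g, hg⟩ h1
      have h2 : ψ g = 1 := congrArg Subtype.val h1
      rw [hψ2, resHom_eq_one] at h2
      have h3 : φ g = 1 := hg
      rw [hφ2, resHom_eq_one] at h3
      apply Subtype.ext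
      apply Subtype.ext
      apply Units.ext
      apply Matrix.toLin'.injective
      apply LinearMap.ext
      intro x
      obtain ⟨y, z, hy, hz, hyz⟩ := Submodule.codisjoint_iff_exists_add_eq.1 hcompl.codisjoint x
      change Matrix.toLin' ((g : GL (Fin m ⊕ Fin m) F) : Matrix (Fin m ⊕ Fin m) (Fin m ⊕ Fin m) F) x = Matrix.toLin' 1 x
      rw [Matrix.toLin'_apply, Matrix.toLin'_apply, Matrix.one_mulVec, ← hyz, Matrix.mulVec_add, h2 y hy, h3 z hz]
    exact Subgroup.card_dvd_of_injective _ hinj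

end Cfsg.Agent.H663.SP
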